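import Mathlib
import Cfsg.Agent.Lib.Helper15.Syl8.GLUE
import Cfsg.Agent.Lib.Helper4.Syl8.KER

set_option autoImplicit false

namespace Cfsg.Agent.Lib.Helper14.Syl8

/-- every row of the BFS table is realised in the closure -/
theorem exists_mem_closure {X Y : Type*} [Group X] [Monoid Y] (v : X →* Y)
    {n k : ℕ} (m : Fin (n + 1) → Y) (g : Fin k → X) (nxt : Fin (n + 1) → Fin k → Fin (n + 1))
    (h0 : m 0 = 1)
    (hmul : ∀ i t, m i * v (g t) = m (nxt i t))
    (hpar : ∀ i : Fin (n + 1), i ≠ 0 → ∃ j : Fin (n + 1), j < i ∧ ∃ t, nxt j t = i) :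
    ∀ i : Fin (n + 1), ∃ x ∈ Subgroup.closure (Set.range g), v x = m i := by
  have key : ∀ (d : ℕ) (i : Fin (n + 1)), i.val = d → ∃ x ∈ Subgroup.closure (Set.range g), v x = m i := by
    intro d
    induction d using Nat.strong_induction_on with
    | _ d ih =>
      intro i hi
      by_cases h : i = 0
      · exact ⟨1, Subgroup.one_mem _, by rw [map_one, h, h0]⟩
      · obtain ⟨j, hj, t, ht⟩ := hpar i h
        obtain ⟨y, hy, hvy⟩ := ih j.val (by rw [← hi]; exact hj) j rfl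
        exact ⟨y * g t, Subgroup.mul_mem _ hy (Subgroup.subset_closure ⟨t, rfl⟩), by
          rw [map_mul, hvy, hmul, ht]⟩
  exact fun i => key i.val i rfl

/-- permutations as self-maps -/
def v1 : Equiv.Perm (Fin 8) →* Function.End (Fin 8) where
  toFun σ := (σ : Fin 8 → Fin 8)
  map_one' := rfl
  map_mul' _ _ := rfl

theorem v1_inj : Function.Injective v1 := fun _ _ h => DFunLike.coe_injective h

theorem asm {U M B : Type*} [Group U] [Monoid M] [Group B] (w : U →* M) (hw : Function.Injective w)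
    (π : U →* B) {n k : ℕ} (pf : Fin (n + 1) → (Fin 8 → Fin 8)) (mf : Fin (n + 1) → M)
    (gP : Fin k → Equiv.Perm (Fin 8)) (gU : Fin k → U)
    (nxt : Fin (n + 1) → Fin k → Fin (n + 1)) (inv : Fin k → Fin k)
    (hp0 : ∀ x, pf 0 x = x) (hm0 : mf 0 = 1)
    (hp : ∀ i t x, pf i (gP t x) = pf (nxt i t) x)
    (hm : ∀ i t, mf i * w (gU t) = mf (nxt i t))
    (hpinv : ∀ t x, gP t (gP (inv t) x) = x) (hminv : ∀ t, w (gU t) * w (gU (inv t)) = 1)
    (hpar : ∀ i : Fin (n + 1), i ≠ 0 → ∃ j : Fin (n + 1), j < i ∧ ∃ t, nxt j t = i)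
    (hker : ∀ i, ∀ u : U, w u = mf i → ((∀ x, pf i x = x) ↔ π u = 1))
    (c : ℕ) (hcard : (Finset.univ.image pf).card = c) :
    ∃ H : Subgroup (Equiv.Perm (Fin 8)),
      (∀ S : Subgroup (Equiv.Perm (Fin 8)), (∀ t, gP t ∈ S) → H ≤ S) ∧ Nat.card H = c ∧
      ∃ j : H →* B, Function.Injective j := by
  classical
  let v : Equiv.Perm (Fin 8) × U →* Function.End (Fin 8) × M := MonoidHom.prodMap v1 w
  have hv : Function.Injective v := by
    intro a b hab
    have h1 : v1 a.1 = v1 b.1 := congrArg Prod.fst hab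
    have h2 : w a.2 = w b.2 := congrArg Prod.snd hab
    exact Prod.ext (v1_inj h1) (hw h2)
  let g : Fin k → Equiv.Perm (Fin 8) × U := fun t => (gP t, gU t)
  let m : Fin (n + 1) → Function.End (Fin 8) × M := fun i => (pf i, mf i)
  have h0 : m 0 = 1 := Prod.ext (funext hp0) hm0
  have hmul : ∀ i t, m i * v (g t) = m (nxt i t) := fun i t =>
    Prod.ext (funext (hp i t)) (hm i t)
  have hinv : ∀ t, v (g t) * v (g (inv t)) = 1 := fun t =>
    Prod.ext (funext (hpinv t)) (hminv t)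
  have hmem := Cfsg.Agent.Lib.Helper15.Syl8.mem_closure_iff v hv m g nxt inv h0 hmul hinv hpar
  have hex := exists_mem_closure v m g nxt h0 hmul hpar
  set R := Subgroup.closure (Set.range g) with hR
  let α : R →* Equiv.Perm (Fin 8) := (MonoidHom.fst _ _).comp R.subtype
  let β : R →* B := π.comp ((MonoidHom.snd _ _).comp R.subtype)
  have hk : α.ker = β.ker := by
    ext x
    obtain ⟨i, hi⟩ := (hmem x.1).1 x.2
    have h1 : ((x.1.1 : Equiv.Perm (Fin 8)) : Fin 8 → Fin 8) = pf i := congrArg Prod.fst hi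
    have h2 : w x.1.2 = mf i := congrArg Prod.snd hi
    rw [MonoidHom.mem_ker, MonoidHom.mem_ker]
    show x.1.1 = 1 ↔ π x.1.2 = 1
    rw [← hker i _ h2]
    constructor
    · intro h y
      rw [← h1, h]; rfl
    · intro h
      ext y
      rw [h1, h y]; rfl
  obtain ⟨e⟩ := Cfsg.Agent.Lib.Helper4.Syl8.range_equiv_of_ker_eq α β hk
  refine ⟨α.range, ?_, ?_, β.range.subtype.comp e.toMonoidHom, ?_⟩
  · intro S hS
    have hle : R ≤ S.prod ⊤ := by
      rw [hR, Subgroup.closure_le]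
      rintro _ ⟨t, rfl⟩
      exact Subgroup.mem_prod.2 ⟨hS t, Subgroup.mem_top _⟩
    rintro _ ⟨x, rfl⟩
    exact (Subgroup.mem_prod.1 (hle x.2)).1
  · have himg : (fun σ : Equiv.Perm (Fin 8) => (σ : Fin 8 → Fin 8)) '' (α.range : Set (Equiv.Perm (Fin 8)))
        = ((Finset.univ.image pf : Finset (Fin 8 → Fin 8)) : Set (Fin 8 → Fin 8)) := by
      ext f
      simp only [Set.mem_image, SetLike.mem_coe, MonoidHom.mem_range, Finset.coe_image,
        Finset.coe_univ, Set.image_univ, Set.mem_range]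
      constructor
      · rintro ⟨_, ⟨x, rfl⟩, rfl⟩
        obtain ⟨i, hi⟩ := (hmem x.1).1 x.2
        exact ⟨i, (congrArg Prod.fst hi).symm⟩
      · rintro ⟨i, rfl⟩
        obtain ⟨x, hx, hxi⟩ := hex i
        exact ⟨x.1, ⟨⟨x, hx⟩, rfl⟩, congrArg Prod.fst hxi⟩
    have h1 : Nat.card α.range = (α.range : Set (Equiv.Perm (Fin 8))).ncard := rfl
    rw [h1, ← Set.ncard_image_of_injective _ (DFunLike.coe_injective), himg, Set.ncard_coe_finset, hcard]
  · exact (Subgroup.subtype_injective _).comp e.injective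

end Cfsg.Agent.Lib.Helper14.Syl8
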