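import Mathlib
import Cfsg.Prelude.Def_Classical
import Cfsg.Agent.Lib.Helper14.Syl8.Asm
import Cfsg.Agent.Lib.Helper14.Syl8.D1
import Cfsg.Agent.Lib.Helper14.Syl8.D2
import Cfsg.Agent.Lib.Helper4.Syl8.CEN

set_option autoImplicit false
set_option maxRecDepth 100000

namespace Cfsg.Agent.Lib.Helper14.Syl8

namespace P1
open D1

def gP (t : Fin 5) : Equiv.Perm (Fin 8) where
  toFun := pf (gi t)
  invFun := pf (gi (iv t))
  left_inv x := by
    have h := chk_pinv (iv t) x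
    rwa [chk_iv] at h
  right_inv x := chk_pinv t x

def gS (t : Fin 5) : ↥(Matrix.symplecticGroup (Fin 2) (ZMod 3)) :=
  ⟨mf (gi t), SymplecticGroup.mem_iff.2 (chk_sp t)⟩

theorem chk_sign : ∀ t : Fin 5, Equiv.Perm.sign (gP t) = 1 := by decide +kernel

theorem part1 : ∃ H : Subgroup (Equiv.Perm (Fin 8)), H ≤ alternatingGroup (Fin 8) ∧ Nat.card H = 2 ^ 6 ∧
    ∃ j : H →* Cfsg.PSp 2 (ZMod 3), Function.Injective j := by
  obtain ⟨H, hle, hc, j, hj⟩ := asm (U := ↥(Matrix.symplecticGroup (Fin 2) (ZMod 3)))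
    (B := Cfsg.PSp 2 (ZMod 3))
    (Matrix.symplecticGroup (Fin 2) (ZMod 3)).subtype Subtype.val_injective
    (QuotientGroup.mk' (Subgroup.center ↥(Matrix.symplecticGroup (Fin 2) (ZMod 3))))
    (n := 127) (fun i => pf i.val) (fun i => mf i.val) gP gS nx iv
    chk_p0 chk_m0 chk_p chk_m chk_pinv chk_minv
    (fun i hi => ⟨par i, (chk_par i hi).1, lab i, (chk_par i hi).2⟩)
    (by
      intro i u hu
      rw [chk_ker i, QuotientGroup.mk'_apply, QuotientGroup.eq_one_iff,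
        Cfsg.Agent.Lib.Helper4.Syl8.mem_center_sp3, ← hu]
      rfl)
    64 chk_card
  exact ⟨H, hle _ (fun t => Equiv.Perm.mem_alternatingGroup.2 (chk_sign t)), hc.trans (by norm_num), j, hj⟩

end P1

namespace P2
open D2

abbrev OO := ↥(Cfsg.isometryGroup (ZMod 2) (Cfsg.quadFormMinus 2 (ZMod 2) 1 1))

def gP (t : Fin 6) : Equiv.Perm (Fin 8) where
  toFun := pf (gi t)
  invFun := pf (gi (iv t))
  left_inv x := by
    have h := chk_pinv (iv t) x
    rwa [chk_iv] at h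
  right_inv x := chk_pinv t x

def gG (t : Fin 6) : Matrix.GeneralLinearGroup ((Fin 2 ⊕ Fin 2) ⊕ Fin 2) (ZMod 2) :=
  ⟨mf (gi t), mf (gi (iv t)), chk_minv t, by
    have h := chk_minv (iv t)
    rwa [chk_iv] at h⟩

def gO (t : Fin 6) : OO := ⟨gG t, fun u _ => chk_iso t u⟩

def w : OO →* Matrix ((Fin 2 ⊕ Fin 2) ⊕ Fin 2) ((Fin 2 ⊕ Fin 2) ⊕ Fin 2) (ZMod 2) :=
  (Units.coeHom _).comp (Subgroup.subtype _)

theorem w_inj : Function.Injective w := fun _ _ h => Subtype.ext (Units.ext h)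

theorem part2 : ∃ H : Subgroup (Equiv.Perm (Fin 8)), Nat.card H = 2 ^ 7 ∧
    ∃ j : H →* OO, Function.Injective j := by
  obtain ⟨H, -, hc, j, hj⟩ := asm (U := OO) (B := OO) w w_inj (MonoidHom.id OO)
    (n := 127) (fun i => pf i.val) (fun i => mf i.val) gP gO nx iv
    chk_p0 chk_m0 chk_p chk_m chk_pinv chk_minv
    (fun i hi => ⟨par i, (chk_par i hi).1, lab i, (chk_par i hi).2⟩)
    (by
      intro i u hu
      rw [chk_ker i, ← hu, MonoidHom.id_apply]
      constructor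
      · intro h
        exact w_inj (h.trans (map_one w).symm)
      · intro h
        rw [h, map_one])
    128 chk_card
  exact ⟨H, hc.trans (by norm_num), j, hj⟩

end P2

end Cfsg.Agent.Lib.Helper14.Syl8
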